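import Mathlib
import Cfsg.Agent.Lib.PGroups.Basic
import Cfsg.Agent.Lib.Coprime.Generation2

/-!
# Central chains through a chain of normal subgroups of a finite p-group
-/

set_option autoImplicit false

namespace Cfsg.Agent.Lib.DerivedBound.Chain

open Subgroup
open scoped commutatorElement

variable {P : Type*} [Group P]

/-- If `L ≤ K` are normal of relative index `p` in a `p`-group then `[P, K] ≤ L`. -/
theorem comm_mem_of_relIndex [Finite P] {p : ℕ} [hp : Fact p.Prime] (hG : IsPGroup p P)
    {L K : Subgroup P} [L.Normal] [K.Normal] (hLK : L ≤ K) (h : L.relIndex K = p)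
    (g y : P) (hy : y ∈ K) : ⁅g, y⁆ ∈ L := by
  have hQ : IsPGroup p (P ⧸ L) := hG.to_quotient L
  set f := QuotientGroup.mk' L with hf
  have hsurj : Function.Surjective f := QuotientGroup.mk'_surjective L
  set K' : Subgroup (P ⧸ L) := K.map f with hK'
  have hcard : Nat.card K' = p := by
    have h1 : L = (⊥ : Subgroup (P ⧸ L)).comap f := by
      ext x
      simp [hf]
    have h2 : K = K'.comap f := by
      rw [hK', comap_map_eq]
      have : f.ker = L := QuotientGroup.ker_mk' L
      rw [this, sup_eq_left.mpr hLK]
    have h3 : L.relIndex K = ((⊥ : Subgroup (P ⧸ L)).comap f).relIndex (K'.comap f) := by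
      rw [← h1, ← h2]
    rw [h3, relIndex_comap, map_comap_eq_self] at h
    · rwa [relIndex_bot_left] at h
    · rw [MonoidHom.range_eq_top.mpr hsurj]
      exact le_top
  have hne : K' ≠ ⊥ := by
    intro h0
    rw [h0] at hcard
    simp at hcard
    exact hp.out.one_lt.ne hcard
  haveI : K'.Normal := Subgroup.Normal.map ‹_› _ hsurj
  obtain ⟨z, hzK, hzZ, hzp⟩ := Cfsg.Agent.Lib.PGroups.Basic.exists_central_orderOf_eq hQ K' hne
  have hle : zpowers z ≤ K' := by rw [zpowers_le]; exact hzK
  have heq : zpowers z = K' := by
    apply Subgroup.eq_of_le_of_card_ge hle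
    rw [hcard, Nat.card_zpowers, hzp]
  have hfy : f y ∈ zpowers z := by
    rw [heq]
    exact mem_map_of_mem _ hy
  have hcen : f y ∈ center (P ⧸ L) := by
    have : zpowers z ≤ center (P ⧸ L) := by rw [zpowers_le]; exact hzZ
    exact this hfy
  rw [mem_center_iff] at hcen
  have : f ⁅g, y⁆ = 1 := by
    rw [map_commutatorElement, commutatorElement_eq_one_iff_mul_comm]
    exact (hcen (f g))
  exact (QuotientGroup.eq_one_iff _).mp this

/-- Central chain through a chain of normal subgroups, up to a given normal subgroup. -/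
theorem exists_chain [Finite P] {p : ℕ} [hp : Fact p.Prime] (hG : IsPGroup p P)
    (N : Set (Subgroup P)) (hNn : ∀ X ∈ N, X.Normal) (hNc : ∀ X ∈ N, ∀ Y ∈ N, X ≤ Y ∨ Y ≤ X)
    (A : Subgroup P) [hA : A.Normal] :
    ∃ (m : ℕ) (L : ℕ → Subgroup P), Nat.card A = p ^ m ∧ L m = A ∧ (∀ j, (L j).Normal) ∧
      L 0 = ⊥ ∧ Monotone L ∧ (∀ j ≥ m, L j = A) ∧
      (∀ j < m, ∀ g : P, ∀ y ∈ L (j + 1), ⁅g, y⁆ ∈ L j) ∧
      (∀ j ≤ m, Nat.card (L j) = p ^ j) ∧
      (∀ j < m, (L j).relIndex (L (j + 1)) = p) ∧
      (∀ X ∈ N, X ≤ A → ∃ j ≤ m, L j = X) := by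
  classical
  induction' hc : Nat.card A using Nat.strong_induction_on with c ih generalizing A
  by_cases hbot : A = ⊥
  · subst hbot
    refine ⟨0, fun _ => ⊥, ?_, rfl, fun _ => inferInstance, rfl, monotone_const, fun _ _ => rfl,
      fun j hj => absurd hj (Nat.not_lt_zero j), ?_, fun j hj => absurd hj (Nat.not_lt_zero j), ?_⟩
    · rw [← hc]; simp
    · intro j hj
      have : j = 0 := by omega
      subst this
      simp
    · intro X _ hX
      exact ⟨0, le_rfl, (le_bot_iff.mp hX).symm⟩
  · -- choose the largest member of `N` strictly below `A`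
    set B : Set (Subgroup P) := {X | (X ∈ N ∧ X < A) ∨ X = ⊥} with hB
    have hBne : B.Nonempty := ⟨⊥, Or.inr rfl⟩
    obtain ⟨Y, hYB, hYmax⟩ := (wellFounded_gt (α := Subgroup P)).has_min B hBne
    have hYn : Y.Normal := by
      rcases hYB with ⟨h, _⟩ | h
      · exact hNn _ h
      · rw [h]; infer_instance
    have hYlt : Y < A := by
      rcases hYB with ⟨_, h⟩ | h
      · exact h
      · rw [h]; exact bot_lt_iff_ne_bot.mpr hbot
    have hYtop : ∀ X ∈ N, X < A → X ≤ Y := by
      intro X hX hXA
      have hXB : X ∈ B := Or.inl ⟨hX, hXA⟩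
      have hYN : Y ∈ N ∨ Y = ⊥ := by
        rcases hYB with ⟨h, _⟩ | h
        · exact Or.inl h
        · exact Or.inr h
      rcases hYN with hY | hY
      · rcases hNc X hX Y hY with h | h
        · exact h
        · by_contra hXY
          exact hYmax X hXB (lt_of_le_of_ne h (fun e => hXY (e ▸ le_rfl)))
      · by_contra hXY
        have hlt : Y < X := by
          rw [hY]
          apply bot_lt_iff_ne_bot.mpr
          intro h0
          apply hXY
          rw [h0, hY]
        exact hYmax X hXB hlt
    obtain ⟨D, hDn, hYD, hDA, hDi⟩ :=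
      Cfsg.Agent.Lib.PGroups.Basic.exists_normal_relIndex_below hG hYlt
    haveI := hDn
    have hDcard : Nat.card A = Nat.card D * p := by
      rw [← hDi, Subgroup.relIndex]
      have h1 : Nat.card (D.subgroupOf A) = Nat.card D := by
        rw [Nat.card_congr (Subgroup.subgroupOfEquivOfLe hDA).toEquiv]
      rw [← h1, Subgroup.card_mul_index]
    have hpos : 0 < Nat.card D := Nat.card_pos
    have hDlt : Nat.card D < c := by
      rw [← hc, hDcard]
      exact lt_mul_of_one_lt_right hpos hp.out.one_lt
    obtain ⟨m, L, hcard, hLm, hLn, hL0, hLmono, hLtop, hLcen, hLcard, hLidx, hLpos⟩ :=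
      ih _ hDlt D rfl
    refine ⟨m + 1, fun j => if j ≤ m then L j else A, ?_, ?_, ?_, ?_, ?_, ?_, ?_, ?_, ?_, ?_⟩
    · rw [← hc, hDcard, hcard, pow_succ]
    · simp
    · intro j
      by_cases h : j ≤ m
      · simp only [h, if_true]; exact hLn j
      · simp only [h, if_false]; exact hA
    · simp [hL0]
    · intro a b hab
      show (if a ≤ m then L a else A) ≤ (if b ≤ m then L b else A)
      by_cases h : b ≤ m
      · have h' : a ≤ m := hab.trans h
        simp only [h, h', if_true]
        exact hLmono hab
      · simp only [h, if_false]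
        by_cases h' : a ≤ m
        · simp only [h', if_true]
          exact (hLmono h').trans (hLm ▸ hDA)
        · simp only [h', if_false]; exact le_rfl
    · intro j hj
      have : ¬ j ≤ m := by omega
      simp only [this, if_false]
    · intro j hj g y hy
      by_cases h : j + 1 ≤ m
      · have h' : j ≤ m := by omega
        simp only [h, h', if_true] at hy ⊢
        exact hLcen j (by omega) g y hy
      · have h' : j = m := by omega
        subst h'
        simp only [h, le_refl, if_true, if_false] at hy ⊢
        rw [hLm]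
        exact Cfsg.Agent.Lib.DerivedBound.Chain.comm_mem_of_relIndex hG hDA hDi g y hy
    · intro j hj
      by_cases h : j ≤ m
      · simp only [h, if_true]; exact hLcard j h
      · have : j = m + 1 := by omega
        subst this
        simp only [h, if_false]
        rw [hDcard, hcard, pow_succ]
    · intro j hj
      by_cases h : j + 1 ≤ m
      · have h' : j ≤ m := by omega
        simp only [h, h', if_true]
        exact hLidx j (by omega)
      · have h' : j = m := by omega
        subst h'
        simp only [h, le_refl, if_true, if_false]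
        rw [hLm]
        exact hDi
    · intro X hX hXA
      by_cases hXeq : X = A
      · exact ⟨m + 1, le_rfl, by simp [hXeq]⟩
      · have hXlt : X < A := lt_of_le_of_ne hXA hXeq
        obtain ⟨j, hj, hjX⟩ := hLpos X hX ((hYtop X hX hXlt).trans hYD)
        refine ⟨j, by omega, ?_⟩
        simp only [hj, if_true]
        exact hjX

end Cfsg.Agent.Lib.DerivedBound.Chain
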