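import Mathlib
import Cfsg.Agent.Lib.DerivedBound.Chain

/-!
# Order bound for finite p-groups of given derived length (Evans-Riley type)

For a central chain `L` of a `p`-group, `T c` is the subgroup of elements shifting the chain by at
least `c` steps.
-/

set_option autoImplicit false

namespace Cfsg.Agent.Lib.DerivedBound.Main

open Subgroup
open scoped commutatorElement

variable {P : Type*} [Group P]

/-- If `N` is normal and the elements of `S` pairwise commute modulo `N`, then so does everything
in `closure S`. -/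
theorem commutator_le_of_closure (N : Subgroup P) [hN : N.Normal] (S : Set P) (H : Subgroup P)
    (hH : H ≤ closure S) (hS : ∀ a ∈ S, ∀ b ∈ S, ⁅a, b⁆ ∈ N) : ⁅H, H⁆ ≤ N := by
  rw [Subgroup.commutator_le]
  intro a ha b hb
  set f := QuotientGroup.mk' N with hf
  have hcomm : ∀ x ∈ f '' S, ∀ y ∈ f '' S, x * y = y * x := by
    rintro _ ⟨x, hx, rfl⟩ _ ⟨y, hy, rfl⟩
    have : f ⁅x, y⁆ = 1 := (QuotientGroup.eq_one_iff _).mpr (hS x hx y hy)
    rwa [map_commutatorElement, commutatorElement_eq_one_iff_mul_comm] at this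
  have h1 : closure (f '' S) ≤ centralizer (f '' S) := by
    rw [closure_le]
    intro x hx
    rw [SetLike.mem_coe, mem_centralizer_iff]
    intro y hy
    exact hcomm y hy x hx
  have hmap : H.map f ≤ closure (f '' S) := by
    rw [← MonoidHom.map_closure]
    exact map_mono hH
  have hfa := hmap (mem_map_of_mem f ha)
  have hfb := hmap (mem_map_of_mem f hb)
  have h2 : closure (f '' S) ≤ centralizer ({f a} : Set _) := by
    rw [closure_le]
    intro y hy
    rw [SetLike.mem_coe, mem_centralizer_iff]
    intro z hz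
    rw [Set.mem_singleton_iff] at hz
    subst hz
    exact (mem_centralizer_iff.mp (h1 hfa)) y hy |>.symm
  have h3 := mem_centralizer_iff.mp (h2 hfb) (f a) rfl
  have h4 : f ⁅a, b⁆ = 1 := by
    rw [map_commutatorElement, commutatorElement_eq_one_iff_mul_comm]
    exact h3
  exact (QuotientGroup.eq_one_iff _).mp h4

/-- If `A` has prime relative index in `K` and `x ∈ K \ A`, then `K ≤ closure (insert x A)`. -/
theorem le_closure_insert {A K : Subgroup P} (hAK : A ≤ K) (hp : (A.relIndex K).Prime)
    {x : P} (hxK : x ∈ K) (hxA : x ∉ A) : K ≤ closure (insert x (A : Set P)) := by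
  set B := closure (insert x (A : Set P)) with hB
  have hAB : A ≤ B := by
    intro y hy
    exact subset_closure (Set.mem_insert_of_mem _ hy)
  have hxB : x ∈ B := subset_closure (Set.mem_insert _ _)
  have hBK : B ≤ K := by
    rw [hB, closure_le]
    rintro y (rfl | hy)
    · exact hxK
    · exact hAK hy
  have h1 := Subgroup.relIndex_mul_relIndex A B K hAB hBK
  have h2 : A.relIndex B ≠ 1 := by
    intro h
    rw [Subgroup.relIndex_eq_one] at h
    exact hxA (h hxB)
  have h3 : B.relIndex K = 1 := by
    have h4 : A.relIndex B ∣ A.relIndex K := ⟨_, h1.symm⟩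
    rcases (Nat.dvd_prime hp).mp h4 with h5 | h5
    · exact absurd h5 h2
    · rw [h5] at h1
      have hne : A.relIndex K ≠ 0 := hp.ne_zero
      have := Nat.eq_of_mul_eq_mul_left (Nat.pos_of_ne_zero hne) (h1.trans (mul_one _).symm)
      exact this
  exact Subgroup.relIndex_eq_one.mp h3

section Shift

variable (L : ℕ → Subgroup P) (hN : ∀ j, (L j).Normal)

/-- The subgroup of elements shifting the chain by at least `c` steps. -/
def T (c : ℕ) : Subgroup P where
  carrier := {g | ∀ j, ∀ y ∈ L j, ⁅g, y⁆ ∈ L (j - c)}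
  one_mem' := by
    intro j y _
    simp [commutatorElement_def]
  mul_mem' := by
    intro a b ha hb j y hy
    have h1 : ⁅a * b, y⁆ = a * ⁅b, y⁆ * a⁻¹ * ⁅a, y⁆ := by
      simp only [commutatorElement_def]
      group
    rw [h1]
    haveI := hN (j - c)
    exact (L (j - c)).mul_mem (Subgroup.Normal.conj_mem ‹_› _ (hb j y hy) a) (ha j y hy)
  inv_mem' := by
    intro a ha j y hy
    have h1 : ⁅a⁻¹, y⁆ = a⁻¹ * (⁅a, y⁆)⁻¹ * a := by
      simp only [commutatorElement_def]
      group
    rw [h1]
    haveI := hN (j - c)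
    have h2 := Subgroup.Normal.conj_mem ‹_› _ ((L (j - c)).inv_mem (ha j y hy)) a⁻¹
    simpa using h2

variable {L}

theorem mem_T {c : ℕ} {g : P} : g ∈ T L hN c ↔ ∀ j, ∀ y ∈ L j, ⁅g, y⁆ ∈ L (j - c) := Iff.rfl

instance T_normal (c : ℕ) : (T L hN c).Normal := by
  constructor
  intro g hg a j y hy
  have h1 : ⁅a * g * a⁻¹, y⁆ = a * ⁅g, a⁻¹ * y * a⁆ * a⁻¹ := by
    simp only [commutatorElement_def]
    group
  rw [h1]
  haveI := hN j
  haveI := hN (j - c)
  have h2 : a⁻¹ * y * a ∈ L j := by
    have := Subgroup.Normal.conj_mem ‹_› y hy a⁻¹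
    simpa using this
  exact Subgroup.Normal.conj_mem ‹_› _ (hg j _ h2) a

theorem comm_symm_mem {c : ℕ} {g y : P} {j : ℕ} (hg : g ∈ T L hN c) (hy : y ∈ L j) :
    ⁅y, g⁆ ∈ L (j - c) := by
  have := (L (j - c)).inv_mem (hg j y hy)
  rwa [commutatorElement_inv] at this

theorem T_anti (hmono : Monotone L) {a b : ℕ} (hab : a ≤ b) : T L hN b ≤ T L hN a := by
  intro g hg j y hy
  exact hmono (Nat.sub_le_sub_left hab j) (hg j y hy)

/-- The commutator of `T a` and `T b` is in `T (a + b)`. -/
theorem commutator_T_le (a b : ℕ) : ⁅T L hN a, T L hN b⁆ ≤ T L hN (a + b) := by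
  rw [Subgroup.commutator_le]
  intro x hx y hy j z hz
  have hNj := hN (j - (a + b))
  have h1 : ⁅⁅T L hN b, L j⁆, T L hN a⁆ ≤ L (j - (a + b)) := by
    rw [Subgroup.commutator_le]
    intro u hu v hv
    have hu' : u ∈ L (j - b) := by
      have : ⁅T L hN b, L j⁆ ≤ L (j - b) := by
        rw [Subgroup.commutator_le]
        intro s hs t ht
        exact hs j t ht
      exact this hu
    have := comm_symm_mem hN hv hu'
    have e : j - b - a = j - (a + b) := by omega
    rwa [e] at this
  have h2 : ⁅⁅L j, T L hN a⁆, T L hN b⁆ ≤ L (j - (a + b)) := by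
    rw [Subgroup.commutator_le]
    intro u hu v hv
    have hu' : u ∈ L (j - a) := by
      have : ⁅L j, T L hN a⁆ ≤ L (j - a) := by
        rw [Subgroup.commutator_le]
        intro s hs t ht
        exact comm_symm_mem hN ht hs
      exact this hu
    have := comm_symm_mem hN hv hu'
    have e : j - a - b = j - (a + b) := by omega
    rwa [e] at this
  have hnorm : ∀ H : Subgroup P, H ≤ normalizer (L (j - (a + b)) : Set P) := fun H => by
    intro g _
    exact Subgroup.mem_normalizer_iff.mpr (fun h => by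
      constructor
      · intro hh; simpa using hNj.conj_mem h hh g
      · intro hh
        have := hNj.conj_mem _ hh g⁻¹
        simpa [mul_assoc] using this)
  have h3 := Cfsg.Agent.Lib.Coprime.Generation2.three_subgroups_rel (T L hN a) (T L hN b) (L j)
    (L (j - (a + b))) h1 h2 (hnorm _) (hnorm _) (hnorm _)
  exact h3 (Subgroup.commutator_mem_commutator (Subgroup.commutator_mem_commutator hx hy) hz)


variable (hmono : Monotone L)
variable (hcen : ∀ j, ∀ g : P, ∀ y ∈ L (j + 1), ⁅g, y⁆ ∈ L j)
variable (h0 : L 0 = ⊥)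

include hcen h0 in
theorem top_le_T_one : (⊤ : Subgroup P) ≤ T L hN 1 := by
  intro g _ j y hy
  cases j with
  | zero =>
    rw [h0, mem_bot] at hy
    subst hy
    simp [commutatorElement_def]
  | succ j => exact hcen j g y hy

include hcen h0 in
theorem derived_le_T (i : ℕ) : derivedSeries P i ≤ T L hN (2 ^ i) := by
  induction i with
  | zero =>
    rw [derivedSeries_zero]
    exact top_le_T_one hN hcen h0
  | succ i ih =>
    rw [derivedSeries_succ, pow_succ, mul_two]
    exact (Subgroup.commutator_mono ih ih).trans (commutator_T_le hN _ _)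

/-- Positions in the chain are monotone. -/
theorem pos_le {n p : ℕ} (hp : p.Prime) (hcard : ∀ j ≤ n, Nat.card (L j) = p ^ j) [Finite P]
    {a b : ℕ} (ha : a ≤ n) (hb : b ≤ n) (hab : L a ≤ L b) : a ≤ b := by
  have h1 := Subgroup.card_le_of_le hab
  rw [hcard a ha, hcard b hb] at h1
  exact (Nat.pow_le_pow_iff_right hp.one_lt).mp h1

include hN hmono h0 in
/-- The numerical core: if `L s` has `[L s, L (s-1)] ≤ L (s - 1 - e)` then the derived subgroup sits
`e + 1` steps below. -/
theorem step_core {n p : ℕ} (hp : p.Prime) (hcard : ∀ j ≤ n, Nat.card (L j) = p ^ j)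
    (hidx : ∀ j < n, (L j).relIndex (L (j + 1)) = p) [Finite P]
    {s r e : ℕ} (hs : s ≤ n) (hr : r ≤ n) (hs1 : 1 ≤ s)
    (hcomm : ∀ a ∈ L s, ∀ b ∈ L (s - 1), ⁅a, b⁆ ∈ L (s - 1 - e))
    (hrne : L r ≠ ⊥) (hrH : L r = ⁅L s, L s⁆) : r + e + 1 ≤ s := by
  obtain ⟨q, rfl⟩ : ∃ q, s = q + 1 := ⟨s - 1, by omega⟩
  simp only [Nat.add_sub_cancel] at hcomm
  have hi := hidx q (by omega)
  have hle : L q ≤ L (q + 1) := hmono (Nat.le_succ q)
  have hne : ¬ L (q + 1) ≤ L q := by
    intro h
    have : (L q).relIndex (L (q + 1)) = 1 := Subgroup.relIndex_eq_one.mpr h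
    rw [hi] at this
    exact hp.one_lt.ne' this
  obtain ⟨x, hx, hxq⟩ := SetLike.not_le_iff_exists.mp hne
  have hcl := le_closure_insert hle (by rw [hi]; exact hp) hx hxq
  haveI := hN (q - e)
  have hder := commutator_le_of_closure (L (q - e)) (insert x (L q : Set P)) (L (q + 1)) hcl (by
    rintro a (rfl | ha) b (rfl | hb)
    · simp [commutatorElement_def]
    · exact hcomm _ hx _ hb
    · have := (L (q - e)).inv_mem (hcomm _ hx _ ha)
      rwa [commutatorElement_inv] at this
    · exact hcomm _ (hle ha) _ hb)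
  rw [← hrH] at hder
  have h1 : r ≤ q - e := pos_le hp hcard hr (by omega) hder
  have h2 : r ≠ 0 := by
    rintro rfl
    exact hrne h0
  omega

/-- Cyclic-mod-higher-shift subgroups have derived subgroup of higher shift. -/
theorem commutator_le_of_cyclic (hmono : Monotone L) {H : Subgroup P} {w : ℕ} {x : P}
    (hx : x ∈ T L hN w) (hH : H ≤ closure (insert x (T L hN (w + 1) : Set P))) :
    ⁅H, H⁆ ≤ T L hN (2 * w + 1) := by
  haveI := T_normal hN (2 * w + 1)
  apply commutator_le_of_closure _ _ _ hH
  have h1 : ∀ a ∈ T L hN w, ∀ b ∈ T L hN (w + 1), ⁅a, b⁆ ∈ T L hN (2 * w + 1) := by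
    intro a ha b hb
    have := commutator_T_le hN w (w + 1) (Subgroup.commutator_mem_commutator ha hb)
    have e : w + (w + 1) = 2 * w + 1 := by omega
    rwa [e] at this
  have h2 : T L hN (w + 1) ≤ T L hN w := T_anti hN hmono (Nat.le_succ w)
  rintro a (rfl | ha) b (rfl | hb)
  · simp [commutatorElement_def]
  · exact h1 _ hx _ hb
  · have := (T L hN (2 * w + 1)).inv_mem (h1 _ hx _ ha)
    rwa [commutatorElement_inv] at this
  · exact h1 _ (h2 ha) _ hb

/-- The two-generator case. -/
theorem commutator_le_of_two (hmono : Monotone L) {H W : Subgroup P} {w : ℕ}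
    (hW : W ≤ T L hN (w + 1)) (hcT : (⊤ : Subgroup P) ≤ T L hN 1) {x y : P}
    (hx : x ∈ T L hN w) (hy : y ∈ T L hN w)
    (hH : H ≤ closure (insert x (insert y (W : Set P)))) :
    ∃ c ∈ T L hN (2 * w), ⁅H, H⁆ ≤ closure (insert c (T L hN (2 * w + 1) : Set P)) := by
  have hc : ⁅x, y⁆ ∈ T L hN (2 * w) := by
    have := commutator_T_le hN w w (Subgroup.commutator_mem_commutator hx hy)
    rwa [← two_mul] at this
  refine ⟨⁅x, y⁆, hc, ?_⟩
  set c := ⁅x, y⁆ with hcdef
  set U := T L hN (2 * w + 1) with hU
  haveI : U.Normal := T_normal hN (2 * w + 1)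
  set f := QuotientGroup.mk' U with hf
  have hfc : f c ∈ center (P ⧸ U) := by
    rw [mem_center_iff]
    intro g'
    obtain ⟨g, rfl⟩ := QuotientGroup.mk'_surjective U g'
    have h1 : ⁅c, g⁆ ∈ U := by
      have := commutator_T_le hN (2 * w) 1 (Subgroup.commutator_mem_commutator hc (hcT (mem_top g)))
      exact this
    have h2 : f ⁅c, g⁆ = 1 := (QuotientGroup.eq_one_iff _).mpr h1
    rw [map_commutatorElement, commutatorElement_eq_one_iff_mul_comm] at h2
    exact h2.symm
  have hzn : (zpowers (f c)).Normal := by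
    constructor
    intro a ha g
    have hle : zpowers (f c) ≤ center (P ⧸ U) := by
      rw [zpowers_le]
      exact hfc
    have := hle ha
    rw [mem_center_iff] at this
    rw [this g]
    simpa using ha
  set N := (zpowers (f c)).comap f with hNdef
  haveI : N.Normal := Subgroup.Normal.comap hzn f
  have hUN : U ≤ N := by
    intro u hu
    show f u ∈ zpowers (f c)
    have h1 : f u = 1 := (QuotientGroup.eq_one_iff u).mpr hu
    rw [h1]
    exact one_mem _
  have hcN : c ∈ N := mem_zpowers (f c)
  have hle : N ≤ closure (insert c (U : Set P)) := by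
    intro a ha
    obtain ⟨m, hm⟩ := mem_zpowers_iff.mp ha
    have h1 : f (c ^ m) = f a := by rw [map_zpow]; exact hm
    have h2 : (c ^ m)⁻¹ * a ∈ U := by
      have : f ((c ^ m)⁻¹ * a) = 1 := by rw [map_mul, map_inv, h1]; simp
      exact (QuotientGroup.eq_one_iff _).mp this
    have h3 : a = c ^ m * ((c ^ m)⁻¹ * a) := by group
    rw [h3]
    refine mul_mem (zpow_mem (subset_closure (Set.mem_insert _ _)) m)
      (subset_closure (Set.mem_insert_of_mem _ h2))
  refine le_trans ?_ hle
  apply commutator_le_of_closure N _ _ hH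
  have h1 : ∀ a ∈ T L hN w, ∀ b ∈ W, ⁅a, b⁆ ∈ N := by
    intro a ha b hb
    apply hUN
    have := commutator_T_le hN w (w + 1) (Subgroup.commutator_mem_commutator ha (hW hb))
    have e : w + (w + 1) = 2 * w + 1 := by omega
    rwa [e] at this
  have h2 : W ≤ T L hN w := hW.trans (T_anti hN hmono (Nat.le_succ w))
  have hinv : ∀ a b : P, ⁅a, b⁆ ∈ N → ⁅b, a⁆ ∈ N := by
    intro a b hab
    have := N.inv_mem hab
    rwa [commutatorElement_inv] at this
  have hone : ∀ a : P, ⁅a, a⁆ ∈ N := by
    intro a
    simp [commutatorElement_def]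
  rintro a (rfl | rfl | ha) b (rfl | rfl | hb)
  · exact hone _
  · exact hcN
  · exact h1 _ hx _ hb
  · exact hinv _ _ hcN
  · exact hone _
  · exact h1 _ hy _ hb
  · exact hinv _ _ (h1 _ hx _ ha)
  · exact hinv _ _ (h1 _ hy _ ha)
  · exact h1 _ (h2 ha) _ hb

include hN hcen h0 in
/-- The improved shift on `L (s-1)` when the top three steps are central. -/
theorem improved_shift {s : ℕ} (hb : ∀ g : P, ∀ y ∈ L (s - 1), ⁅g, y⁆ ∈ L (s - 3)) (i : ℕ) :
    ∀ a ∈ derivedSeries P i, ∀ b ∈ L (s - 1), ⁅a, b⁆ ∈ L (s - 2 - 2 ^ i) := by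
  induction i with
  | zero =>
    intro a _ b hb'
    have := hb a b hb'
    have e : s - 2 - 2 ^ 0 = s - 3 := by simp; omega
    rwa [e]
  | succ i ih =>
    intro a ha b hb'
    rw [derivedSeries_succ] at ha
    set D := derivedSeries P i with hD
    set M := L (s - 2 - 2 ^ (i + 1)) with hM
    have hNM : M.Normal := hN _
    have hDT : D ≤ T L hN (2 ^ i) := derived_le_T hN hcen h0 i
    have e : s - 2 - 2 ^ i - 2 ^ i = s - 2 - 2 ^ (i + 1) := by
      rw [pow_succ]; omega
    have h1 : ⁅⁅D, L (s - 1)⁆, D⁆ ≤ M := by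
      rw [Subgroup.commutator_le]
      intro u hu v hv
      have hu' : u ∈ L (s - 2 - 2 ^ i) := by
        have : ⁅D, L (s - 1)⁆ ≤ L (s - 2 - 2 ^ i) := by
          rw [Subgroup.commutator_le]
          intro p hp q hq
          exact ih p hp q hq
        exact this hu
      have := comm_symm_mem hN (hDT hv) hu'
      rwa [e] at this
    have h2 : ⁅⁅L (s - 1), D⁆, D⁆ ≤ M := by
      rwa [Subgroup.commutator_comm (L (s - 1)) D]
    have hnorm : ∀ H : Subgroup P, H ≤ normalizer (M : Set P) := fun H => by
      intro g _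
      exact Subgroup.mem_normalizer_iff.mpr (fun h => by
        constructor
        · intro hh; simpa using hNM.conj_mem h hh g
        · intro hh
          have := hNM.conj_mem _ hh g⁻¹
          simpa [mul_assoc] using this)
    have h3 := Cfsg.Agent.Lib.Coprime.Generation2.three_subgroups_rel D D (L (s - 1)) M h1 h2
      (hnorm _) (hnorm _) (hnorm _)
    exact h3 (Subgroup.commutator_mem_commutator ha hb')

end Shift


/-- The invariant of the level-by-level induction. -/
theorem level_invariant [Finite P] {n p : ℕ} (hp : p.Prime) {L : ℕ → Subgroup P}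
    (hN : ∀ j, (L j).Normal) (hmono : Monotone L)
    (hcen : ∀ j, ∀ g : P, ∀ y ∈ L (j + 1), ⁅g, y⁆ ∈ L j) (h0 : L 0 = ⊥)
    (hcard : ∀ j ≤ n, Nat.card (L j) = p ^ j) (hidx : ∀ j < n, (L j).relIndex (L (j + 1)) = p)
    (htop : L n = ⊤)
    (hpos : ∀ i, ∃ s ≤ n, L s = derivedSeries P i)
    (hpos' : ∀ i, ∃ t ≤ n, L t = ⁅derivedSeries P i, (⊤ : Subgroup P)⁆)
    (k : ℕ) (hk : derivedSeries P k ≠ ⊥) (i : ℕ) (hi : i ≤ k) :
    ∃ w s, s ≤ n ∧ L s = derivedSeries P i ∧ derivedSeries P i ≤ T L hN w ∧
      ((w = 2 ^ i ∧ s + 2 ^ i + 2 * i ≤ n + 1) ∨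
       (w = 2 ^ i ∧ (∃ c ∈ T L hN w, derivedSeries P i ≤
          closure (insert c (T L hN (w + 1) : Set P))) ∧ s + 2 ^ i + 2 * i ≤ n + 2) ∨
       (2 ^ i + 1 ≤ w ∧ s + 2 ^ i + 2 * i ≤ n + 3)) := by
  have hTop := top_le_T_one hN hcen h0
  have hne : ∀ j ≤ k, derivedSeries P j ≠ ⊥ := by
    intro j hj h
    apply hk
    rw [eq_bot_iff, ← h]
    exact derivedSeries_antitone P hj
  induction i with
  | zero =>
    refine ⟨1, n, le_rfl, by rw [htop, derivedSeries_zero], ?_, Or.inl ⟨by simp, by simp⟩⟩
    rw [derivedSeries_zero]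
    exact hTop
  | succ i ih =>
    obtain ⟨w, s, hs, hLs, hw, hcase⟩ := ih (by omega)
    obtain ⟨r, hr, hLr⟩ := hpos (i + 1)
    have hsne : 1 ≤ s := by
      by_contra hs0
      have : s = 0 := by omega
      subst this
      apply hne i (by omega)
      rw [← hLs, h0]
    have hrne : L r ≠ ⊥ := by
      rw [hLr]
      exact hne (i + 1) hi
    have hrH : L r = ⁅L s, L s⁆ := by rw [hLr, hLs, derivedSeries_succ]
    have hA : r + w + 1 ≤ s := by
      apply step_core hN hmono h0 hp hcard hidx hs hr hsne _ hrne hrH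
      intro a ha b hb
      rw [hLs] at ha
      exact hw ha _ b hb
    have hder2 : derivedSeries P (i + 1) ≤ T L hN (2 * w) := by
      rw [derivedSeries_succ, two_mul]
      exact (Subgroup.commutator_mono hw hw).trans (commutator_T_le hN _ _)
    have h2pow : (2 : ℕ) ^ (i + 1) = 2 ^ i + 2 ^ i := by rw [pow_succ]; omega
    rcases hcase with ⟨hw2, hnum⟩ | ⟨hw2, ⟨c, hc, hcl⟩, hnum⟩ | ⟨hw2, hnum⟩
    · -- level type G
      subst hw2
      obtain ⟨t, ht, hLt⟩ := hpos' i
      have hts : t + 1 ≤ s := by
        have h1 : L t ≤ L (s - 1) := by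
          rw [hLt, ← hLs, Subgroup.commutator_le]
          intro a ha g _
          have := hcen (s - 1) g a (by
            have e : s - 1 + 1 = s := by omega
            rwa [e])
          have h2 := (L (s - 1)).inv_mem this
          rwa [commutatorElement_inv] at h2
        have := pos_le hp hcard ht (by omega) h1
        omega
      have hWT : L t ≤ T L hN (2 ^ i + 1) := by
        rw [hLt]
        exact (Subgroup.commutator_mono hw hTop).trans (commutator_T_le hN _ _)
      by_cases h3 : t + 3 ≤ s
      · -- order at least `p ^ 3`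
        have hb : ∀ g : P, ∀ y ∈ L (s - 1), ⁅g, y⁆ ∈ L (s - 3) := by
          intro g y hy
          have hyS : y ∈ L s := hmono (Nat.sub_le s 1) hy
          rw [hLs] at hyS
          have h1 : ⁅y, g⁆ ∈ L t := by
            rw [hLt]
            exact Subgroup.commutator_mem_commutator hyS (mem_top g)
          have h2 : ⁅y, g⁆ ∈ L (s - 3) := hmono (by omega) h1
          have h3 := (L (s - 3)).inv_mem h2
          rwa [commutatorElement_inv] at h3
        have hB : r + (2 ^ i + 1) + 1 ≤ s := by
          apply step_core hN hmono h0 hp hcard hidx hs hr hsne _ hrne hrH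
          intro a ha b hbb
          rw [hLs] at ha
          have := improved_shift hN hcen h0 hb i a ha b hbb
          have e : s - 1 - (2 ^ i + 1) = s - 2 - 2 ^ i := by omega
          rwa [e]
        refine ⟨2 ^ (i + 1), r, hr, hLr, derived_le_T hN hcen h0 _, Or.inl ⟨rfl, ?_⟩⟩
        rw [h2pow]
        omega
      · by_cases h2 : t + 2 = s
        · -- order `p ^ 2`
          have hsq : s - 1 + 1 = s := by omega
          have hi1 := hidx (s - 1) (by omega)
          rw [hsq] at hi1
          have hi2 := hidx t (by omega)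
          have ht1 : t + 1 = s - 1 := by omega
          rw [ht1] at hi2
          have hle1 : L (s - 1) ≤ L s := hmono (by omega)
          have hle2 : L t ≤ L (s - 1) := hmono (by omega)
          have hne1 : ¬ L s ≤ L (s - 1) := by
            intro h
            have : (L (s - 1)).relIndex (L s) = 1 := Subgroup.relIndex_eq_one.mpr h
            rw [hi1] at this
            exact hp.one_lt.ne' this
          have hne2 : ¬ L (s - 1) ≤ L t := by
            intro h
            have : (L t).relIndex (L (s - 1)) = 1 := Subgroup.relIndex_eq_one.mpr h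
            rw [hi2] at this
            exact hp.one_lt.ne' this
          obtain ⟨x, hx, hxq⟩ := SetLike.not_le_iff_exists.mp hne1
          obtain ⟨y, hy, hyq⟩ := SetLike.not_le_iff_exists.mp hne2
          have hcl1 := le_closure_insert hle1 (by rw [hi1]; exact hp) hx hxq
          have hcl2 := le_closure_insert hle2 (by rw [hi2]; exact hp) hy hyq
          have hcl3 : L s ≤ closure (insert x (insert y (L t : Set P))) := by
            refine hcl1.trans ?_
            rw [closure_le]
            rintro z (rfl | hz)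
            · exact subset_closure (Set.mem_insert _ _)
            · have h5 : closure (insert y (L t : Set P)) ≤
                  closure (insert x (insert y (L t : Set P))) :=
                closure_mono (Set.subset_insert _ _)
              exact h5 (hcl2 hz)
          rw [hLs] at hcl3
          have hxT : x ∈ T L hN (2 ^ i) := hw (by rw [← hLs]; exact hx)
          have hyT : y ∈ T L hN (2 ^ i) := hw (by rw [← hLs]; exact hle1 hy)
          obtain ⟨c, hc, hcc⟩ := commutator_le_of_two hN hmono hWT hTop hxT hyT hcl3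
          refine ⟨2 ^ (i + 1), r, hr, hLr, derived_le_T hN hcen h0 _, Or.inr (Or.inl ⟨rfl, ?_, ?_⟩)⟩
          · refine ⟨c, ?_, ?_⟩
            · have e : 2 ^ (i + 1) = 2 * 2 ^ i := by rw [pow_succ]; omega
              rw [e]
              exact hc
            · have e : 2 ^ (i + 1) + 1 = 2 * 2 ^ i + 1 := by rw [pow_succ]; omega
              rw [e, derivedSeries_succ]
              exact hcc
          · rw [h2pow]
            omega
        · -- order `p`
          have ht1 : t + 1 = s := by omega
          have hi1 := hidx t (by omega)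
          rw [ht1] at hi1
          have hle1 : L t ≤ L s := hmono (by omega)
          have hne1 : ¬ L s ≤ L t := by
            intro h
            have : (L t).relIndex (L s) = 1 := Subgroup.relIndex_eq_one.mpr h
            rw [hi1] at this
            exact hp.one_lt.ne' this
          obtain ⟨x, hx, hxq⟩ := SetLike.not_le_iff_exists.mp hne1
          have hcl1 := le_closure_insert hle1 (by rw [hi1]; exact hp) hx hxq
          have hxT : x ∈ T L hN (2 ^ i) := hw (by rw [← hLs]; exact hx)
          have hcl2 : derivedSeries P i ≤ closure (insert x (T L hN (2 ^ i + 1) : Set P)) := by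
            rw [← hLs]
            exact hcl1.trans (closure_mono (Set.insert_subset_insert hWT))
          have hC := commutator_le_of_cyclic hN hmono hxT hcl2
          refine ⟨2 * 2 ^ i + 1, r, hr, hLr, ?_, Or.inr (Or.inr ⟨?_, ?_⟩)⟩
          · rw [derivedSeries_succ]
            exact hC
          · rw [h2pow]
            omega
          · rw [h2pow]
            omega
    · -- level type C
      subst hw2
      have hC := commutator_le_of_cyclic hN hmono hc hcl
      refine ⟨2 * 2 ^ i + 1, r, hr, hLr, ?_, Or.inr (Or.inr ⟨?_, ?_⟩)⟩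
      · rw [derivedSeries_succ]
        exact hC
      · rw [h2pow]
        omega
      · rw [h2pow]
        omega
    · -- level type D
      refine ⟨2 * w, r, hr, hLr, hder2, Or.inr (Or.inr ⟨?_, ?_⟩)⟩
      · rw [h2pow]
        omega
      · rw [h2pow]
        omega

/-- The main theorem. -/
theorem main [Finite P] (p : ℕ) [hp : Fact p.Prime] (n k : ℕ) (hcard : Nat.card P = p ^ n)
    (hk : derivedSeries P k ≠ ⊥) : 2 ^ k + 2 * k ≤ n + 2 := by
  have hG : IsPGroup p P := IsPGroup.of_card hcard
  set N : Set (Subgroup P) :=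
    {X | ∃ i, X = derivedSeries P i ∨ X = ⁅derivedSeries P i, (⊤ : Subgroup P)⁆} with hNdef
  have hcomm_le : ∀ i j, i < j → derivedSeries P j ≤ ⁅derivedSeries P i, (⊤ : Subgroup P)⁆ := by
    intro i j hij
    refine (derivedSeries_antitone P (Nat.succ_le_of_lt hij)).trans ?_
    rw [derivedSeries_succ]
    exact Subgroup.commutator_mono le_rfl le_top
  have hcomm_self : ∀ i, ⁅derivedSeries P i, (⊤ : Subgroup P)⁆ ≤ derivedSeries P i := by
    intro i
    exact Subgroup.commutator_le_left _ _
  have hNn : ∀ X ∈ N, X.Normal := by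
    rintro X ⟨i, rfl | rfl⟩ <;> infer_instance
  have hNc : ∀ X ∈ N, ∀ Y ∈ N, X ≤ Y ∨ Y ≤ X := by
    rintro X ⟨i, rfl | rfl⟩ Y ⟨j, rfl | rfl⟩
    · rcases le_total i j with h | h
      · exact Or.inr (derivedSeries_antitone P h)
      · exact Or.inl (derivedSeries_antitone P h)
    · rcases lt_or_ge j i with h | h
      · exact Or.inl (hcomm_le j i h)
      · exact Or.inr ((hcomm_self j).trans (derivedSeries_antitone P h))
    · rcases lt_or_ge i j with h | h
      · exact Or.inr (hcomm_le i j h)
      · exact Or.inl ((hcomm_self i).trans (derivedSeries_antitone P h))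
    · rcases le_total i j with h | h
      · exact Or.inr (Subgroup.commutator_mono (derivedSeries_antitone P h) le_rfl)
      · exact Or.inl (Subgroup.commutator_mono (derivedSeries_antitone P h) le_rfl)
  obtain ⟨m, L, hm, hLm, hLn, hL0, hLmono, hLtop, hLcen, hLcard, hLidx, hLpos⟩ :=
    Cfsg.Agent.Lib.DerivedBound.Chain.exists_chain hG N hNn hNc (⊤ : Subgroup P)
  have hmn : m = n := by
    have h1 : Nat.card (⊤ : Subgroup P) = Nat.card P := by simp
    rw [h1, hcard] at hm
    exact (Nat.pow_right_injective hp.out.two_le hm).symm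
  subst hmn
  have hcen : ∀ j, ∀ g : P, ∀ y ∈ L (j + 1), ⁅g, y⁆ ∈ L j := by
    intro j g y hy
    by_cases hj : j < m
    · exact hLcen j hj g y hy
    · rw [hLtop j (by omega)]
      exact mem_top _
  have hpos : ∀ i, ∃ s ≤ m, L s = derivedSeries P i := fun i =>
    hLpos _ ⟨i, Or.inl rfl⟩ le_top
  have hpos' : ∀ i, ∃ t ≤ m, L t = ⁅derivedSeries P i, (⊤ : Subgroup P)⁆ := fun i =>
    hLpos _ ⟨i, Or.inr rfl⟩ le_top
  obtain ⟨w, s, hs, hLs, _, hcase⟩ := level_invariant hp.out hLn hLmono hcen hL0 hLcard hLidx hLm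
    hpos hpos' k hk k le_rfl
  have hs1 : 1 ≤ s := by
    by_contra h
    have : s = 0 := by omega
    subst this
    exact hk (by rw [← hLs, hL0])
  rcases hcase with ⟨_, h⟩ | ⟨_, _, h⟩ | ⟨_, h⟩ <;> omega

end Cfsg.Agent.Lib.DerivedBound.Main
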